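import Cfsg.Agent.CA.OddPair
import Mathlib.GroupTheory.SchurZassenhaus
import Mathlib.GroupTheory.Solvable

/-!
# Groups of odd order with abelian centralisers are solvable
-/

set_option autoImplicit false
set_option linter.style.haveILetI false
set_option linter.unusedSectionVars false

namespace CfsgLib.CA

open Cfsg CfsgLib.CharBasics

universe u

/-- The final inequality. -/
theorem odd_final {n e g a B : ℕ} (he : 3 ≤ e) (ha : a = n * e + 1) (hn : n = 2 ∨ 4 ≤ n)
    (hB : (n = 2 ∧ B = 2 * e + 3) ∨ (4 ≤ n ∧ B = 2 * e + 1)) (hg : (a + 1) * a * e ≤ g)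
    {W : ℝ} (hlow : (g : ℝ) - 1 ≤ g * W) (hup : W ≤ ((n : ℝ) + e) / a + ((e : ℝ) - 1) / B) : False := by
  have haR : (0 : ℝ) < a := by rw [ha]; positivity
  have hBR : (0 : ℝ) < B := by rcases hB with ⟨-, h⟩ | ⟨-, h⟩ <;> rw [h] <;> positivity
  have hgR : (((a + 1) * a * e : ℕ) : ℝ) ≤ g := Nat.cast_le.2 hg
  push_cast at hgR
  have heR : (3 : ℝ) ≤ e := by exact_mod_cast he
  have hg0 : (0 : ℝ) ≤ g := Nat.cast_nonneg g
  have h1 : ((g : ℝ) - 1) * (a * B) ≤ g * (((n : ℝ) + e) * B + ((e : ℝ) - 1) * a) := by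
    have h2 := le_trans hlow (mul_le_mul_of_nonneg_left hup hg0)
    have h3 := mul_le_mul_of_nonneg_right h2 (mul_nonneg haR.le hBR.le)
    refine h3.trans (le_of_eq ?_)
    field_simp
  rcases hB with ⟨rfl, rfl⟩ | ⟨hn4, rfl⟩
  · subst ha
    push_cast at h1 hgR ⊢
    nlinarith [mul_le_mul_of_nonneg_right hgR (by linarith : (0 : ℝ) ≤ 2 * ((e : ℝ) - 1)), sq_nonneg ((e : ℝ) - 3)]
  · subst ha
    push_cast at h1 hgR ⊢
    have hnR : (4 : ℝ) ≤ n := by exact_mod_cast hn4
    have h4 : 2 * ((e : ℝ) + 1) ≤ ((e : ℝ) - 1) * ((e : ℝ) + 1) * ((n : ℝ) - 2) := by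
      have h : (2 : ℝ) ≤ ((e : ℝ) - 1) * ((n : ℝ) - 2) := by nlinarith
      have := mul_le_mul_of_nonneg_right h (by linarith : (0 : ℝ) ≤ (e : ℝ) + 1)
      linarith
    have hpos : (0 : ℝ) ≤ 2 * ((e : ℝ) + 1) := by linarith
    have h5 : (0 : ℝ) < (n : ℝ) * e + 1 := by positivity
    have h6 : (2 * (e : ℝ) + 1) < ((n : ℝ) * e + 1 + 1) * e * (2 * ((e : ℝ) + 1)) := by nlinarith
    have h7 := mul_lt_mul_of_pos_left h6 h5
    have h8 := mul_le_mul hgR h4 hpos hg0
    linarith

variable {G : Type u} [Group G] [Fintype G]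

/-- No non-abelian simple group of odd order has only abelian centralisers. -/
theorem false_of_odd_simple (hodd : Odd (Nat.card G)) (hCA : IsCA G) (hna : ∃ a b : G, a * b ≠ b * a)
    (hsimple : ∀ N : Subgroup G, N.Normal → N = ⊥ ∨ N = ⊤) : False := by
  classical
  haveI : Fintype (IrrCharacter G) := Fintype.ofFinite _
  let P₀ := {x : G // x ≠ 1}
  have hlt : ∀ x : P₀, Cn (x : G) < Subgroup.normalizer (Cn (x : G) : Set G) :=
    fun x => lt_normalizer hCA hna hsimple x.2
  have hH : ∀ x : P₀, Hyp (Cn (x : G)) := fun x => hyp_Cn hCA x.2 (hlt x)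
  let s : Setoid P₀ :=
    { r := fun x y => ∃ g : G, Cn (y : G) = (Cn (x : G)).map (MulAut.conj g).toMonoidHom
      iseqv := {
        refl := fun x => ⟨1, by rw [map_Cn]; simp⟩
        symm := fun {x y} ⟨g, hg⟩ => ⟨g⁻¹, by
          rw [hg, Subgroup.map_map]
          ext z
          simp [Subgroup.mem_map, mul_assoc]⟩
        trans := fun {x y z} ⟨g, hg⟩ ⟨g', hg'⟩ => ⟨g' * g, by
          rw [hg', hg, Subgroup.map_map, map_mul]
          rfl⟩ } }
  let ι := Quotient s
  haveI : Fintype ι := Fintype.ofFinite _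
  let rep : ι → P₀ := fun i => i.out
  let K : ι → Subgroup G := fun i => Cn (rep i : G)
  have hK : ∀ i, Hyp (K i) := fun i => hH (rep i)
  have hsurj : ∀ x : P₀, ∃ (i : ι) (g : G), Cn (x : G) = (K i).map (MulAut.conj g).toMonoidHom := fun x =>
    ⟨Quotient.mk s x, Quotient.exact (Quotient.out_eq (Quotient.mk s x))⟩
  have hbot : ∀ i, K i ≠ ⊥ := fun i h => (rep i).2 (by
    have h1 := self_mem_Cn (rep i : G)
    change (rep i : G) ∈ K i at h1
    rwa [h, Subgroup.mem_bot] at h1)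
  have hapart : ∀ i j, i ≠ j → Apart (K i) (K j) := by
    intro i j hij g k hk hk'
    by_contra hk1
    refine hij ?_
    rw [← Quotient.out_eq i, ← Quotient.out_eq j]
    refine Quotient.sound ⟨g, ?_⟩
    show K j = (K i).map _
    have h1 : Cn (g * k * g⁻¹) = K j := Cn_eq hCA (rep j).2 hk' (by simpa using hk1)
    have h2 : Cn k = K i := Cn_eq hCA (rep i).2 hk hk1
    rw [← h1, ← map_Cn, h2]
  let n : ι → ℕ := fun i => Nat.card (Rels (K i))
  let e : ι → ℕ := fun i => ee (K i)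
  let a : ι → ℕ := fun i => Nat.card (K i)
  let M : ι → ℕ := fun i => (Nz (K i)).index
  have hna' : ∀ i, e i * n i + 1 = a i := fun i => (hK i).card_rels_mul (hbot i)
  have hcardN : ∀ i, Nat.card (Nz (K i)) = a i * e i := fun i => by
    show _ = Nat.card (K i) * ee (K i)
    rw [← (hK i).card_Kn, Subgroup.card_mul_index]
  have hMae : ∀ i, a i * e i * M i = Nat.card G := fun i => by
    rw [← hcardN]; exact Subgroup.card_mul_index _
  have haodd : ∀ i, Odd (a i) := fun i => hodd.of_dvd_nat (Subgroup.card_subgroup_dvd_card _)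
  have heodd : ∀ i, Odd (e i) := fun i =>
    hodd.of_dvd_nat (Dvd.dvd.trans (Dvd.intro_left _ (hcardN i).symm) (Subgroup.card_subgroup_dvd_card _))
  have he3 : ∀ i, 3 ≤ e i := fun i => by
    have h1 : 1 < e i := (hK i).one_lt_ee
    obtain ⟨k, hk⟩ := heodd i
    omega
  have hnpos : ∀ i, 0 < n i := fun i => Nat.pos_of_ne_zero fun h => hbot i
    (Subgroup.eq_bot_of_card_eq _ (by have := hna' i; rw [h, mul_zero, zero_add] at this; exact this.symm))
  have hneven : ∀ i, Even (n i) := fun i => by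
    have h1 : Odd (e i * n i + 1) := hna' i ▸ haodd i
    rw [Nat.odd_add_one, Nat.not_odd_iff_even, Nat.even_mul] at h1
    exact h1.resolve_left (Nat.not_even_iff_odd.2 (heodd i))
  have hn2 : ∀ i, 2 ≤ n i := fun i => by
    obtain ⟨k, hk⟩ := hneven i
    have := hnpos i
    omega
  have haij : ∀ i j, i ≠ j → a i ≠ a j := by
    intro i j hij heq
    obtain ⟨p, hp, hpd⟩ := Nat.exists_prime_and_dvd (show a i ≠ 1 by have := hna' i; have := hn2 i; have := he3 i; nlinarith)
    haveI := Fact.mk hp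
    obtain ⟨g, hg⟩ := conj_of_common_prime hCA (rep i).2 (rep j).2 hpd (show p ∣ a j from heq ▸ hpd)
    refine hij ?_
    rw [← Quotient.out_eq i, ← Quotient.out_eq j]
    exact Quotient.sound ⟨g, hg⟩
  have F : ∀ i, Nonempty (Fam (K i)) := fun i => exists_fam (hK i) (hn2 i)
  -- constant values
  have hdex : ∀ i j, ∃ d : ℤ, i ≠ j → ∀ χ : Rels (K i), ∀ l ∈ K j, l ≠ 1 → ((F i).some.f χ : G → ℂ) l = (d : ℂ) := by
    intro i j
    by_cases hij : i = j
    · exact ⟨0, fun h => absurd hij h⟩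
    · obtain ⟨d, hd⟩ := (F i).some.exists_const (hK i) (hK j) (F j).some (hapart i j hij) (hn2 i) (hn2 j)
      exact ⟨d, fun _ => hd⟩
  choose d hd using hdex
  have hk0 : ∀ i, ∃ k : G, k ∈ K i ∧ k ≠ 1 := fun i => ⟨rep i, self_mem_Cn _, (rep i).2⟩
  choose k₀ hk₀ hk₀1 using hk0
  have hpar : ∀ i j, i ≠ j → d i j ≠ 0 ∨ d j i ≠ 0 := by
    intro i j hij
    have h := (F i).some.parity (hK i) (hK j) (F j).some (hapart i j hij) hodd (hn2 i) (hn2 j) (hneven i) (hneven j)
      (hk₀ i) (hk₀1 i) (hk₀ j) (hk₀1 j) (d i j) (d j i) (fun χ => hd i j hij χ _ (hk₀ j) (hk₀1 j))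
      (fun ξ => hd j i (Ne.symm hij) ξ _ (hk₀ i) (hk₀1 i))
    by_contra hc
    push Not at hc
    rw [hc.1, hc.2] at h
    simp at h
  let w : ι → ℝ := fun i => (n i : ℝ) / (a i : ℝ)
  have hapos : ∀ i, (0 : ℝ) < a i := fun i => Nat.cast_pos.2 Nat.card_pos
  have hMw : ∀ i, (M i : ℝ) * ((a i : ℝ) - 1) = (Nat.card G : ℝ) * w i := by
    intro i
    simp only [w]
    rw [← hMae i, ← hna' i]
    push_cast
    field_simp
    ring
  -- every non-identity element lies in a conjugate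
  have hcover : (Nat.card G : ℝ) - 1 ≤ (Nat.card G : ℝ) * ∑ i, w i := by
    let m : (Σ i, (G ⧸ Nz (K i)) × {k : K i // k ≠ 1}) → G := fun z => z.2.1.out * (z.2.2.1 : G) * (z.2.1.out)⁻¹
    have hsub : Finset.univ.erase (1 : G) ⊆ Finset.univ.image m := by
      intro x hx
      have hx1 := (Finset.mem_erase.1 hx).1
      obtain ⟨i, g, hg⟩ := hsurj ⟨x, hx1⟩
      have hxm := self_mem_Cn x
      rw [show Cn x = _ from hg] at hxm
      obtain ⟨k, hk, hkx⟩ := hxm
      have hkx' : g * k * g⁻¹ = x := hkx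
      set q : G ⧸ Nz (K i) := QuotientGroup.mk g
      have hn : (q.out)⁻¹ * g ∈ Nz (K i) := QuotientGroup.eq.1 (QuotientGroup.out_eq' q)
      refine Finset.mem_image.2 ⟨⟨i, q, ⟨⟨_, (Subgroup.mem_normalizer_iff.1 hn k).1 hk⟩, fun h => ?_⟩⟩,
        Finset.mem_univ _, ?_⟩
      · have h' : (q.out)⁻¹ * g * k * ((q.out)⁻¹ * g)⁻¹ = 1 := congrArg Subtype.val h
        rw [mul_inv_eq_one, mul_eq_left] at h'
        rw [h', mul_one, mul_inv_cancel] at hkx'
        exact hx1 hkx'.symm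
      · simp only [m]
        refine Eq.trans ?_ hkx'
        group
    have h1 := (Finset.card_le_card hsub).trans Finset.card_image_le
    rw [Finset.card_erase_of_mem (Finset.mem_univ _), Finset.card_univ, Finset.card_univ, Fintype.card_sigma,
      ← Nat.card_eq_fintype_card] at h1
    have h2 : ∀ i, Fintype.card ((G ⧸ Nz (K i)) × {k : K i // k ≠ 1}) = M i * (a i - 1) := fun i => by
      rw [Fintype.card_prod, Fintype.card_subtype_compl, Fintype.card_subtype_eq, ← Nat.card_eq_fintype_card,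
        ← Nat.card_eq_fintype_card]
      rfl
    simp only [h2] at h1
    have h3 : ((Nat.card G - 1 : ℕ) : ℝ) ≤ ((∑ i, M i * (a i - 1) : ℕ) : ℝ) := Nat.cast_le.2 h1
    rw [Nat.cast_sum, Nat.cast_sub Nat.card_pos, Nat.cast_one] at h3
    rw [Finset.mul_sum]
    refine h3.trans (le_of_eq (Finset.sum_congr rfl fun i _ => ?_))
    rw [← hMw i, Nat.cast_mul, Nat.cast_sub Nat.card_pos, Nat.cast_one]
  obtain ⟨x₀, hx₀⟩ : ∃ x : G, x ≠ 1 := by
    obtain ⟨u, v, huv⟩ := hna
    exact ⟨u, fun h => huv (by rw [h, one_mul, mul_one])⟩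
  haveI : Nonempty ι := ⟨Quotient.mk s ⟨x₀, hx₀⟩⟩
  obtain ⟨i, -, hi⟩ := Finset.exists_min_image (Finset.univ : Finset ι) e Finset.univ_nonempty
  set Pj := Finset.univ.filter fun j => j ≠ i ∧ d i j ≠ 0 with hPj
  set Qj := Finset.univ.filter fun j => j ≠ i ∧ d j i ≠ 0 with hQj
  -- the family of `i` on the other classes
  have hout : ∑ j ∈ Pj, w j ≤ (e i : ℝ) / a i := by
    let Φ : G → ℝ := fun g => ∑ χ : Rels (K i), ‖((F i).some.f χ : G → ℂ) g‖ ^ 2
    have hΦ : ∀ g y, Φ (y * g * y⁻¹) = Φ g := fun g y => Finset.sum_congr rfl fun χ _ => by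
      rw [isClassFunction (isCharacter_of_irr ((F i).some.f χ).2)]
    have htot : ∑ g, Φ g = (n i : ℝ) * Nat.card G := by
      simp only [Φ]
      rw [Finset.sum_comm, Finset.sum_congr rfl fun χ _ => sum_normSq_irr _, Finset.sum_const, Finset.card_univ,
        nsmul_eq_mul, ← Nat.card_eq_fintype_card]
    have h0 : ∀ g, 0 ≤ Φ g := fun g => Finset.sum_nonneg fun _ _ => sq_nonneg _
    have h1 := sum_classes_le K hK (fun a b hab => hapart a b hab) Φ hΦ h0
    rw [htot] at h1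
    have h2 : ∀ j ∈ Pj, (n i : ℝ) * ((Nat.card G : ℝ) * w j) ≤ (M j : ℝ) * ∑ k : {k : K j // k ≠ 1}, Φ (k.1 : G) := by
      intro j hj
      obtain ⟨hji, hdj⟩ := (Finset.mem_filter.1 hj).2
      have hk : ∀ k : {k : K j // k ≠ 1}, (n i : ℝ) ≤ Φ (k.1 : G) := by
        intro k
        simp only [Φ]
        rw [Finset.sum_congr rfl fun χ _ => by rw [hd i j (Ne.symm hji) χ _ k.1.2 fun h => k.2 (Subtype.ext h)],
          Finset.sum_const, Finset.card_univ, ← Nat.card_eq_fintype_card, nsmul_eq_mul]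
        refine le_mul_of_one_le_right (Nat.cast_nonneg _) ?_
        rw [Complex.norm_intCast, sq_abs]
        exact_mod_cast (by nlinarith [Int.one_le_abs hdj, sq_abs (d i j), abs_nonneg (d i j)] : (1 : ℤ) ≤ d i j ^ 2)
      have hc : (Fintype.card {k : K j // k ≠ 1} : ℝ) = (a j : ℝ) - 1 := by
        rw [Fintype.card_subtype_compl, Fintype.card_subtype_eq, ← Nat.card_eq_fintype_card,
          Nat.cast_sub Nat.card_pos, Nat.cast_one]
      calc (n i : ℝ) * ((Nat.card G : ℝ) * w j) = (M j : ℝ) * ∑ _k : {k : K j // k ≠ 1}, (n i : ℝ) := by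
            rw [← hMw j, Finset.sum_const, Finset.card_univ, nsmul_eq_mul, hc]; ring
        _ ≤ _ := mul_le_mul_of_nonneg_left (Finset.sum_le_sum fun k _ => hk k) (Nat.cast_nonneg _)
    have h3 : (Nat.card G : ℝ) * w i * ((a i : ℝ) - e i) ≤ (M i : ℝ) * ∑ k : {k : K i // k ≠ 1}, Φ (k.1 : G) := by
      rw [← hMw i, mul_assoc]
      exact mul_le_mul_of_nonneg_left ((F i).some.sum_norm_K (hK i) (hn2 i)) (Nat.cast_nonneg _)
    have hnot : i ∉ Pj := fun h => (Finset.mem_filter.1 h).2.1 rfl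
    have h4 : ∑ j ∈ insert i Pj, (M j : ℝ) * ∑ k : {k : K j // k ≠ 1}, Φ (k.1 : G) ≤
        ∑ j, (M j : ℝ) * ∑ k : {k : K j // k ≠ 1}, Φ (k.1 : G) :=
      Finset.sum_le_sum_of_subset_of_nonneg (Finset.subset_univ _) fun j _ _ =>
        mul_nonneg (Nat.cast_nonneg _) (Finset.sum_nonneg fun _ _ => h0 _)
    rw [Finset.sum_insert hnot] at h4
    have h5 := Finset.sum_le_sum h2
    rw [← Finset.mul_sum, ← Finset.mul_sum] at h5
    have hG : (0 : ℝ) < (n i : ℝ) * Nat.card G := mul_pos (Nat.cast_pos.2 (hnpos i)) (Nat.cast_pos.2 Nat.card_pos)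
    refine le_of_mul_le_mul_left ?_ hG
    have h6 : (Nat.card G : ℝ) * w i * ((a i : ℝ) - e i) = (n i : ℝ) * Nat.card G - (n i : ℝ) * Nat.card G * ((e i : ℝ) / a i) := by
      have := hapos i
      simp only [w]
      field_simp
    have := h0 1
    change Φ 1 + ∑ j, (M j : ℝ) * ∑ k : {k : K j // k ≠ 1}, Φ (k.1 : G) ≤ _ at h1
    linarith
  -- the column at an element of the class of `i`
  have hin : ∑ j ∈ Qj, n j + 1 ≤ e i := by
    let S : Finset (IrrCharacter G) := Qj.biUnion fun j => Finset.univ.image (F j).some.f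
    have hS : ∀ φ ∈ S, φ ∉ Set.range (F i).some.f ∧ φ ≠ oneChar := by
      intro φ hφ
      obtain ⟨j, hj, hφj⟩ := Finset.mem_biUnion.1 hφ
      obtain ⟨χ, -, rfl⟩ := Finset.mem_image.1 hφj
      have hji := (Finset.mem_filter.1 hj).2.1
      exact ⟨fun ⟨ξ, hξ⟩ => (F j).some.range_disjoint (hK j) (hK i) (F i).some (hapart j i hji) (hn2 j) (hn2 i) χ ξ hξ.symm,
        (F j).some.ne_one χ⟩
    have h1 := (F i).some.col_bound (hK i) (hk₀ i) (hk₀1 i) S hS
    have h2 : ((∑ j ∈ Qj, n j : ℕ) : ℝ) ≤ ∑ φ ∈ S, ‖(φ : G → ℂ) (k₀ i)‖ ^ 2 := by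
      rw [Finset.sum_biUnion, Nat.cast_sum]
      · refine Finset.sum_le_sum fun j hj => ?_
        obtain ⟨hji, hdj⟩ := (Finset.mem_filter.1 hj).2
        rw [Finset.sum_image (F j).some.inj.injOn,
          Finset.sum_congr rfl fun χ _ => by rw [hd j i hji χ _ (hk₀ i) (hk₀1 i)],
          Finset.sum_const, Finset.card_univ, ← Nat.card_eq_fintype_card, nsmul_eq_mul]
        refine le_mul_of_one_le_right (Nat.cast_nonneg _) ?_
        rw [Complex.norm_intCast, sq_abs]
        exact_mod_cast (by nlinarith [Int.one_le_abs hdj, sq_abs (d j i), abs_nonneg (d j i)] : (1 : ℤ) ≤ d j i ^ 2)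
      · intro j _ l _ hjl
        rw [Function.onFun, Finset.disjoint_left]
        intro φ h₁ h₂
        obtain ⟨χ, -, rfl⟩ := Finset.mem_image.1 h₁
        obtain ⟨ξ, -, hξ⟩ := Finset.mem_image.1 h₂
        exact (F j).some.range_disjoint (hK j) (hK l) (F l).some (hapart j l hjl) (hn2 j) (hn2 l) χ ξ hξ.symm
    have h3 := (F i).some.card_mul_sq_le (hK i) (hn2 i)
    have h4 : ((∑ j ∈ Qj, n j + 1 : ℕ) : ℝ) ≤ (e i : ℝ) := by push_cast at h2 ⊢; linarith
    exact_mod_cast h4
  -- the bound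
  set B := if n i = 2 then 2 * e i + 3 else 2 * e i + 1 with hBdef
  have hBle : ∀ j, j ≠ i → B ≤ a j := by
    intro j hj
    have h1 : 2 * e i ≤ e j * n j := by
      have := hi j (Finset.mem_univ _); have := hn2 j; nlinarith
    have h2 := hna' j
    rw [hBdef]
    split_ifs with h
    · have h3 : a j ≠ a i := haij j i hj
      have h4 := hna' i
      rw [h] at h4
      obtain ⟨k, hk⟩ := haodd j
      obtain ⟨l, hl⟩ := haodd i
      omega
    · omega
  have hBpos : (0 : ℝ) < B := by rw [hBdef]; split_ifs <;> positivity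
  have hQw : ∑ j ∈ Qj, w j ≤ ((e i : ℝ) - 1) / B := by
    calc ∑ j ∈ Qj, w j ≤ ∑ j ∈ Qj, (n j : ℝ) / B := Finset.sum_le_sum fun j hj =>
          div_le_div_of_nonneg_left (Nat.cast_nonneg _) hBpos (Nat.cast_le.2 (hBle j (Finset.mem_filter.1 hj).2.1))
      _ = ((∑ j ∈ Qj, n j : ℕ) : ℝ) / B := by rw [Nat.cast_sum, Finset.sum_div]
      _ ≤ _ := by
        refine div_le_div_of_nonneg_right ?_ hBpos.le
        have : ((∑ j ∈ Qj, n j + 1 : ℕ) : ℝ) ≤ (e i : ℝ) := Nat.cast_le.2 hin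
        push_cast at this ⊢
        linarith
  have hup : ∑ j, w j ≤ ((n i : ℝ) + e i) / a i + ((e i : ℝ) - 1) / B := by
    have hsub : (Finset.univ : Finset ι) ⊆ insert i (Pj ∪ Qj) := by
      intro j _
      simp only [hPj, hQj, Finset.mem_insert, Finset.mem_union, Finset.mem_filter, Finset.mem_univ, true_and]
      by_cases hji : j = i
      · exact Or.inl hji
      · rcases hpar i j (Ne.symm hji) with h | h
        · exact Or.inr (Or.inl ⟨hji, h⟩)
        · exact Or.inr (Or.inr ⟨hji, h⟩)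
    have hw : ∀ j, 0 ≤ w j := fun j => div_nonneg (Nat.cast_nonneg _) (hapos j).le
    have hnot : i ∉ Pj ∪ Qj := by simp [hPj, hQj]
    calc ∑ j, w j ≤ ∑ j ∈ insert i (Pj ∪ Qj), w j :=
          Finset.sum_le_sum_of_subset_of_nonneg hsub fun j _ _ => hw j
      _ = w i + ∑ j ∈ Pj ∪ Qj, w j := Finset.sum_insert hnot
      _ ≤ w i + (∑ j ∈ Pj, w j + ∑ j ∈ Qj, w j) := by
          rw [← Finset.sum_union_inter]
          linarith [Finset.sum_nonneg (s := Pj ∩ Qj) fun j _ => hw j]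
      _ ≤ _ := by
          rw [add_div]
          linarith
  have hNtop : Subgroup.normalizer (K i : Set G) ≠ ⊤ := by
    intro h
    rcases hsimple (K i) (Subgroup.normalizer_eq_top_iff.1 h) with h' | h'
    · exact hbot i h'
    · exact ne_top_of_noncomm hCA hna (rep i).2 h'
  refine odd_final (he3 i) (show a i = n i * e i + 1 by rw [← hna' i, mul_comm]) ?_ ?_ ?_ hcover hup
  · obtain ⟨k, hk⟩ := hneven i
    have := hn2 i
    omega
  · rw [hBdef]
    obtain ⟨k, hk⟩ := hneven i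
    have := hn2 i
    split_ifs with h
    · exact Or.inl ⟨h, rfl⟩
    · exact Or.inr ⟨by omega, rfl⟩
  · rw [← hMae i]
    have h : a i + 1 ≤ M i := card_lt_index (hK i) hNtop
    calc (a i + 1) * a i * e i = a i * e i * (a i + 1) := by ring
      _ ≤ _ := Nat.mul_le_mul_left _ h

/-- A group of odd order with abelian centralisers is solvable. -/
theorem solvable_of_odd : ∀ (N : ℕ) (G : Type u) [Group G] [Finite G], Nat.card G = N → Odd (Nat.card G) →
    IsCA G → Group.IsSolvable G := by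
  intro N
  induction N using Nat.strong_induction_on with
  | _ N ih => ?_
  intro G _ _ hN hodd hCA
  classical
  haveI : Fintype G := Fintype.ofFinite G
  by_cases hna : ∃ a b : G, a * b ≠ b * a
  swap
  · push Not at hna
    exact Group.isSolvable_of_comm hna
  have hsub : ∀ H : Subgroup G, H ≠ ⊤ → Group.IsSolvable H := by
    intro H hH
    refine ih _ ?_ H rfl (hodd.of_dvd_nat (Subgroup.card_subgroup_dvd_card H)) ?_
    · rw [← hN, ← Subgroup.card_top (G := G)]
      refine lt_of_le_of_ne (Subgroup.card_le_of_le le_top) fun he => hH ?_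
      exact Subgroup.eq_top_of_card_eq H (by rw [he, Subgroup.card_top])
    · intro x hx a ha b hb
      exact Subtype.ext (hCA x (fun e => hx (Subtype.ext e)) a (mem_Cn.2 (congrArg Subtype.val (mem_Cn.1 ha)))
        b (mem_Cn.2 (congrArg Subtype.val (mem_Cn.1 hb))))
  by_contra hns
  refine false_of_odd_simple hodd hCA hna fun M hM => ?_
  by_contra hc
  push Not at hc
  -- a non-trivial abelian normal subgroup
  obtain ⟨V, hV, hVne, hVab⟩ : ∃ V : Subgroup G, V.Normal ∧ V ≠ ⊥ ∧ ∀ a ∈ V, ∀ b ∈ V, a * b = b * a := by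
    haveI := hsub M hc.2
    obtain ⟨k, hk⟩ := Group.IsSolvable.solvable (G := M)
    have hex : ∃ j, derivedSeries M j = ⊥ := ⟨k, hk⟩
    have hf0 : Nat.find hex ≠ 0 := by
      intro h0
      have h := Nat.find_spec hex
      rw [h0, derivedSeries_zero] at h
      refine hc.1 (eq_bot_iff.2 fun y hy => ?_)
      have : (⟨y, hy⟩ : M) ∈ (⊥ : Subgroup M) := h ▸ Subgroup.mem_top _
      exact Subgroup.mem_bot.2 (congrArg Subtype.val (Subgroup.mem_bot.1 this))
    obtain ⟨j, hj⟩ := Nat.exists_eq_succ_of_ne_zero hf0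
    have hD : derivedSeries M (j + 1) = ⊥ := by rw [← Nat.succ_eq_add_one, ← hj]; exact Nat.find_spec hex
    have hD' : derivedSeries M j ≠ ⊥ := Nat.find_min hex (by omega)
    haveI := hM
    haveI : (derivedSeries M j).Characteristic := inferInstance
    refine ⟨(derivedSeries M j).map M.subtype, inferInstance, fun he => hD' ?_, ?_⟩
    · exact (Subgroup.map_eq_bot_iff_of_injective _ M.subtype_injective).1 he
    · rintro _ ⟨u, hu, rfl⟩ _ ⟨v, hv, rfl⟩
      have h := Subgroup.commutator_mem_commutator hu hv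
      rw [← derivedSeries_succ, hD, Subgroup.mem_bot] at h
      exact congrArg Subtype.val (commutatorElement_eq_one_iff_mul_comm.1 h)
  obtain ⟨x, hxV, hx⟩ := (Subgroup.ne_bot_iff_exists_ne_one.1 hVne)
    |> fun ⟨⟨x, hxV⟩, hx⟩ => (⟨x, hxV, fun e => hx (Subtype.ext e)⟩ : ∃ x, x ∈ V ∧ x ≠ 1)
  have hVC : V ≤ Cn x := fun y hy => mem_Cn.2 (hVab y hy x hxV)
  haveI hAn : (Cn x).Normal := by
    refine ⟨fun y hy g => ?_⟩
    exact (Subgroup.mem_normalizer_iff.1 (mem_normalizer_of_conj hCA hx (self_mem_Cn x) hx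
      (hVC (hV.conj_mem _ hxV g))) y).1 hy
  have hne := ne_top_of_noncomm hCA hna hx
  haveI hAs : Group.IsSolvable (Cn x) := hsub _ hne
  have hK : Hyp (Cn x) := hyp_Cn hCA hx (by rw [Subgroup.normalizer_eq_top_iff.2 hAn]; exact lt_top_iff_ne_top.2 hne)
  have hcop : (Nat.card (Cn x)).Coprime (Cn x).index := by
    have h1 := hK.card_rels_mul fun h => hx (by have := self_mem_Cn x; rwa [h, Subgroup.mem_bot] at this)
    have he : ee (Cn x) = (Cn x).index := by
      show ((Cn x).subgroupOf (Nz (Cn x))).index = _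
      rw [← Subgroup.relIndex, show Nz (Cn x) = ⊤ from Subgroup.normalizer_eq_top_iff.2 hAn, Subgroup.relIndex_top_right]
    rw [← he]
    refine Nat.coprime_of_dvd fun q hq hqa hqe => hq.one_lt.ne' ?_
    rw [← h1] at hqa
    exact Nat.dvd_one.1 ((Nat.dvd_add_right (hqe.mul_right _)).1 hqa)
  obtain ⟨E, hE⟩ := Subgroup.exists_right_complement'_of_coprime hcop
  have hEtop : E ≠ ⊤ := by
    intro h
    rw [h] at hE
    exact hx (by have := self_mem_Cn x; rwa [Subgroup.isComplement'_top_right.1 hE, Subgroup.mem_bot] at this)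
  haveI hEs : Group.IsSolvable E := hsub E hEtop
  have hq : Group.IsSolvable (G ⧸ Cn x) :=
    Group.isSolvable_of_surjective (f := (Subgroup.IsComplement'.QuotientMulEquiv hE.symm).symm.toMonoidHom)
      (MulEquiv.surjective _)
  haveI := hq
  exact hns ((Group.isSolvable_iff_subgroup_quotient (Cn x)).2 ⟨hAs, hq⟩)

end CfsgLib.CA
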