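import Cfsg.Agent.CA.Structure
import Cfsg.Agent.Exceptional.OddReal

/-!
# Two exceptional families in a group of odd order
-/

set_option autoImplicit false
set_option linter.style.haveILetI false
set_option linter.unusedSectionVars false

namespace CfsgLib.CA

open Cfsg CfsgLib.CharBasics CfsgLib.Exceptional
open scoped ComplexConjugate

universe u

variable {G : Type u} [Group G] [Fintype G]

/-- The complex conjugate character. -/
noncomputable def bar (χ : IrrCharacter G) : IrrCharacter G := ⟨conjFun (χ : G → ℂ), irr_conjFun χ.2⟩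

theorem bar_apply (χ : IrrCharacter G) (g : G) : (bar χ : G → ℂ) g = conj ((χ : G → ℂ) g) := rfl

theorem bar_bar (χ : IrrCharacter G) : bar (bar χ) = χ := by
  apply Subtype.ext
  funext g
  simp [bar_apply]

/-- Two subgroups have no common non-identity element up to conjugacy. -/
def Apart (K L : Subgroup G) : Prop := ∀ g : G, ∀ k ∈ K, g * k * g⁻¹ ∈ L → k = 1

theorem Apart.symm {K L : Subgroup G} (h : Apart K L) : Apart L K := by
  intro g l hl hk
  have := h g⁻¹ _ hk (by simpa [mul_assoc] using hl)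
  simpa using this

namespace Fam

variable {K L : Subgroup G} (hK : Hyp K) (F : Fam K) (hL : Hyp L) (F' : Fam L) (hd : Apart K L)
include hK hL hd

theorem diff_support (χ ξ : Rels K) (x : ↥(Nz K)) (hx : (x : G) ∉ ((K : Set G) \ {1})) :
    ((χ.1 : ↥(Nz K) → ℂ) - (ξ.1 : ↥(Nz K) → ℂ)) x = 0 := by
  by_cases hxK : (x : G) ∈ K
  · have hx1 : x = 1 := Subtype.ext (by_contra fun hne => hx ⟨hxK, hne⟩)
    rw [hx1, Pi.sub_apply, apply_one (isCharacter_of_irr χ.1.2), apply_one (isCharacter_of_irr ξ.1.2),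
      hK.rel_deg, hK.rel_deg, sub_self]
  · rw [Pi.sub_apply, hK.rel_off χ hxK, hK.rel_off ξ hxK, sub_self]

theorem ind_zero_on_other (χ ξ : Rels K) {g : G} (hg : g ∈ L) (hg1 : g ≠ 1) (y : G) :
    indFun (Nz K) ((χ.1 : ↥(Nz K) → ℂ) - (ξ.1 : ↥(Nz K) → ℂ)) (y * g * y⁻¹) = 0 := by
  rw [isClassFunction_indFun (Nz K) _ g y]
  exact indFun_eq_zero_of_no_conj (diff_support hK hL hd χ ξ) g fun x hx => hg1 (hd.symm x g hg hx.1)

theorem range_disjoint (h2 : 2 ≤ Nat.card (Rels K)) (h2' : 2 ≤ Nat.card (Rels L)) (χ : Rels K) (ξ : Rels L) :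
    F.f χ ≠ F'.f ξ := by
  classical
  intro he
  haveI : Nontrivial (Rels K) := Finite.one_lt_card_iff_nontrivial.1 (by omega)
  haveI : Nontrivial (Rels L) := Finite.one_lt_card_iff_nontrivial.1 (by omega)
  obtain ⟨χ', hχ'⟩ := exists_ne χ
  obtain ⟨ξ', hξ'⟩ := exists_ne ξ
  have h1 : classInner (indFun (Nz K) ((χ.1 : ↥(Nz K) → ℂ) - (χ'.1 : ↥(Nz K) → ℂ)))
      (indFun (Nz L) ((ξ.1 : ↥(Nz L) → ℂ) - (ξ'.1 : ↥(Nz L) → ℂ))) = 0 := by
    rw [classInner_indFun (Nz K) _ (isClassFunction_indFun (Nz L) _), classInner_eq, Finset.sum_eq_zero, mul_zero]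
    intro x _
    by_cases hx : (x : G) ∈ ((K : Set G) \ {1})
    · have := ind_zero_on_other hL hK hd.symm ξ ξ' hx.1 (fun h => hx.2 h) 1
      simp only [one_mul, inv_one, mul_one] at this
      rw [this, map_zero, mul_zero]
    · rw [diff_support hK hL hd χ χ' x hx, zero_mul]
  rw [F.ind, F'.ind, classInner_smul_left, Exceptional.classInner_smul_right, map_intCast, classInner_sub_right,
    Exceptional.classInner_sub_left, Exceptional.classInner_sub_left, classInner_irr, classInner_irr, classInner_irr,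
    classInner_irr, ← he, if_pos rfl, if_neg (fun e => hχ' (F.inj e)),
    if_neg (fun e => hξ' (F'.inj (he.symm.trans e)).symm)] at h1
  have he1 : ((F.ε : ℂ) * F'.ε) ≠ 0 := by
    rcases F.sign with h | h <;> rcases F'.sign with h' | h' <;> rw [h, h'] <;> simp
  rw [← mul_assoc, mul_eq_zero, or_iff_right he1] at h1
  revert h1
  split_ifs <;> norm_num

include F' in
theorem exists_const (h2 : 2 ≤ Nat.card (Rels K)) (h2' : 2 ≤ Nat.card (Rels L)) :
    ∃ d : ℤ, ∀ χ : Rels K, ∀ l ∈ L, l ≠ 1 → (F.f χ : G → ℂ) l = (d : ℂ) := by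
  haveI : Nontrivial (Rels K) := Finite.one_lt_card_iff_nontrivial.1 (by omega)
  obtain ⟨χ₀, -⟩ := exists_pair_ne (Rels K)
  obtain ⟨d, hd'⟩ := F'.other (F.f χ₀) fun ⟨ξ, hξ⟩ => F.range_disjoint hK hL F' hd h2 h2' χ₀ ξ hξ.symm
  refine ⟨d, fun χ l hl hl1 => ?_⟩
  have h1 := ind_zero_on_other hK hL hd χ χ₀ hl hl1 1
  simp only [one_mul, inv_one, mul_one] at h1
  rw [F.ind, Pi.smul_apply, Pi.sub_apply, smul_eq_mul, mul_eq_zero] at h1
  rcases h1 with h1 | h1
  · rcases F.sign with h | h <;> rw [h] at h1 <;> simp at h1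
  · rw [sub_eq_zero.1 h1]; exact hd' l hl hl1

omit hL hd in
theorem bar_mem_range (hodd : Odd (Nat.card G)) (h2 : 2 ≤ Nat.card (Rels K)) (χ : Rels K) :
    bar (F.f χ) ∈ Set.range F.f := by
  classical
  let cj : Rels K → Rels K := fun χ => ⟨⟨conjFun (χ.1 : ↥(Nz K) → ℂ), irr_conjFun χ.1.2⟩, by
    obtain ⟨k, hk, hne⟩ := χ.2
    exact ⟨k, hk, fun he => hne ((starRingEnd ℂ).injective he)⟩⟩
  haveI : Nontrivial (Rels K) := Finite.one_lt_card_iff_nontrivial.1 (by omega)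
  obtain ⟨ξ, hξ⟩ := exists_ne χ
  have h1 := F.ind (cj χ) (cj ξ)
  have hconj : indFun (Nz K) (((cj χ).1 : ↥(Nz K) → ℂ) - ((cj ξ).1 : ↥(Nz K) → ℂ)) =
      fun g => conj (indFun (Nz K) ((χ.1 : ↥(Nz K) → ℂ) - (ξ.1 : ↥(Nz K) → ℂ)) g) := by
    funext g
    simp only [indFun, map_mul, map_inv₀, map_natCast, map_sum]
    congr 1
    refine Finset.sum_congr rfl fun x _ => ?_
    by_cases hm : x⁻¹ * g * x ∈ Nz K
    · rw [extendByZero_coe (Nz K) _ ⟨_, hm⟩, extendByZero_coe (Nz K) _ ⟨_, hm⟩]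
      show _ = conj ((χ.1 : ↥(Nz K) → ℂ) _ - (ξ.1 : ↥(Nz K) → ℂ) _)
      rw [map_sub]; rfl
    · rw [extendByZero_of_not_mem _ _ hm, extendByZero_of_not_mem _ _ hm, map_zero]
  rw [hconj, F.ind χ ξ] at h1
  have h2' : (bar (F.f χ) : G → ℂ) - (bar (F.f ξ) : G → ℂ) =
      (F.f (cj χ) : G → ℂ) - (F.f (cj ξ) : G → ℂ) := by
    funext g
    have h3 := congrFun h1 g
    simp only [Pi.smul_apply, Pi.sub_apply, smul_eq_mul, map_mul, map_intCast, map_sub] at h3
    exact mul_left_cancel₀ (by rcases F.sign with h | h <;> rw [h] <;> simp : (F.ε : ℂ) ≠ 0) h3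
  have h4 := congrArg (fun t => classInner t (bar (F.f χ) : G → ℂ)) h2'
  simp only [Exceptional.classInner_sub_left, classInner_irr, if_pos] at h4
  rw [if_neg (fun e => hξ (F.inj (by rw [← bar_bar (F.f χ), ← e, bar_bar])))] at h4
  by_contra hr
  rw [if_neg (fun e => hr ⟨_, e⟩), if_neg (fun e => hr ⟨_, e⟩)] at h4
  norm_num at h4

theorem parity (hodd : Odd (Nat.card G)) (h2 : 2 ≤ Nat.card (Rels K)) (h2' : 2 ≤ Nat.card (Rels L))
    (hKe : Even (Nat.card (Rels K))) (hLe : Even (Nat.card (Rels L))) {x y : G} (hx : x ∈ K) (hx1 : x ≠ 1)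
    (hy : y ∈ L) (hy1 : y ≠ 1) (d d' : ℤ) (hdd : ∀ χ : Rels K, (F.f χ : G → ℂ) y = (d : ℂ))
    (hdd' : ∀ ξ : Rels L, (F'.f ξ : G → ℂ) x = (d' : ℂ)) : Odd (d + d') := by
  classical
  haveI : Fintype (IrrCharacter G) := Fintype.ofFinite _
  set I₁ := Finset.univ.image F.f with hI₁
  set I₂ := Finset.univ.image F'.f with hI₂
  set R := Finset.univ.filter fun φ : IrrCharacter G => φ ≠ oneChar ∧ φ ∉ I₁ ∧ φ ∉ I₂ with hR
  have hRi : ∀ φ ∈ R, ∃ a b : ℤ, (φ : G → ℂ) x = (a : ℂ) ∧ (φ : G → ℂ) y = (b : ℂ) := by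
    intro φ hφ
    simp only [hR, hI₁, hI₂, Finset.mem_filter, Finset.mem_image, Finset.mem_univ, true_and] at hφ
    obtain ⟨a, ha⟩ := F.other φ fun hc => hφ.2.1 hc
    obtain ⟨b, hb⟩ := F'.other φ fun hc => hφ.2.2 hc
    exact ⟨a, b, ha x hx hx1, hb y hy hy1⟩
  choose! av bv hav hbv using hRi
  have hbarR : ∀ φ ∈ R, bar φ ∈ R := by
    intro φ hφ
    simp only [hR, hI₁, hI₂, Finset.mem_filter, Finset.mem_image, Finset.mem_univ, true_and] at hφ ⊢
    refine ⟨fun e => hφ.1 ?_, ?_, ?_⟩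
    · rw [← bar_bar φ, e]; exact Subtype.ext (funext fun g => map_one _)
    · rintro ⟨χ, hχ⟩
      obtain ⟨χ', hχ'⟩ := F.bar_mem_range hK hodd h2 χ
      exact hφ.2.1 ⟨χ', by rw [hχ', hχ, bar_bar]⟩
    · rintro ⟨χ, hχ⟩
      obtain ⟨χ', hχ'⟩ := F'.bar_mem_range hL hodd h2' χ
      exact hφ.2.2 ⟨χ', by rw [hχ', hχ, bar_bar]⟩
  have hbv' : ∀ φ ∈ R, av (bar φ) = av φ ∧ bv (bar φ) = bv φ := by
    intro φ hφ
    constructor <;> apply Int.cast_injective (α := ℂ)
    · rw [← hav _ (hbarR φ hφ), bar_apply, hav φ hφ, map_intCast]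
    · rw [← hbv _ (hbarR φ hφ), bar_apply, hbv φ hφ, map_intCast]
  have hReven : ((∑ φ ∈ R, av φ * bv φ : ℤ) : ZMod 2) = 0 := by
    push_cast
    refine Finset.sum_involution (fun φ _ => bar φ) (fun φ hφ => ?_) (fun φ hφ _ => ?_) hbarR fun φ _ => bar_bar φ
    · rw [(hbv' φ hφ).1, (hbv' φ hφ).2]
      exact CharTwo.add_self_eq_zero _
    · intro e
      have hne : φ ≠ oneChar := (Finset.mem_filter.1 hφ).2.1
      exact conjFun_ne_of_odd hodd φ.2 (fun h => hne (Subtype.ext h)) (congrArg Subtype.val e)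
  have hsum := sum_col x y
  have hncj : ¬ IsConj x y := fun hc => by
    obtain ⟨g, hg⟩ := isConj_iff.1 hc
    exact hx1 (hd g x hx (by rw [hg]; exact hy))
  rw [if_neg hncj] at hsum
  have hdis : Disjoint I₁ I₂ := by
    rw [Finset.disjoint_left]
    intro φ h₁ h₂
    obtain ⟨χ, -, rfl⟩ := Finset.mem_image.1 h₁
    obtain ⟨ξ, -, hξ⟩ := Finset.mem_image.1 h₂
    exact F.range_disjoint hK hL F' hd h2 h2' χ ξ hξ.symm
  have hu : (Finset.univ : Finset (IrrCharacter G)) = insert oneChar ((I₁ ∪ I₂) ∪ R) := by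
    ext φ
    simp only [hR, Finset.mem_univ, Finset.mem_insert, Finset.mem_union, Finset.mem_filter, true_and, true_iff]
    tauto
  rw [hu, Finset.sum_insert ?_, Finset.sum_union ?_, Finset.sum_union hdis, hI₁, hI₂,
    Finset.sum_image F.inj.injOn, Finset.sum_image F'.inj.injOn] at hsum
  rotate_left
  · rw [Finset.disjoint_right]
    intro φ hφ
    simp only [hR, Finset.mem_filter] at hφ
    simp only [Finset.mem_union, not_or]
    exact hφ.2.2
  · simp only [hR, hI₁, hI₂, Finset.mem_union, Finset.mem_filter, Finset.mem_image, not_or]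
    exact ⟨⟨fun ⟨χ, _, he⟩ => F.ne_one χ he, fun ⟨χ, _, he⟩ => F'.ne_one χ he⟩, fun h => h.2.1 rfl⟩
  have e1 : ∑ χ : Rels K, (F.f χ : G → ℂ) x * conj ((F.f χ : G → ℂ) y) =
      ((d * ((Nat.card (Rels K) : ℤ) * F.c - F.ε) : ℤ) : ℂ) := by
    have hs := hK.sum_rel (k := ⟨x, Subgroup.le_normalizer hx⟩) hx fun e => hx1 (congrArg Subtype.val e)
    simp only [hdd, map_intCast]
    rw [Finset.sum_congr rfl fun χ _ => by
      rw [show x = ((⟨x, Subgroup.le_normalizer hx⟩ : Nz K) : G) from rfl,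
        F.val χ ⟨x, Subgroup.le_normalizer hx⟩ hx fun e => hx1 (congrArg Subtype.val e)],
      ← Finset.sum_mul, Finset.sum_add_distrib, ← Finset.mul_sum, hs, Finset.sum_const, Finset.card_univ,
      ← Nat.card_eq_fintype_card, nsmul_eq_mul]
    push_cast; ring
  have e2 : ∑ χ : Rels L, (F'.f χ : G → ℂ) x * conj ((F'.f χ : G → ℂ) y) =
      ((d' * ((Nat.card (Rels L) : ℤ) * F'.c - F'.ε) : ℤ) : ℂ) := by
    have hs := hL.sum_rel (k := ⟨y, Subgroup.le_normalizer hy⟩) hy fun e => hy1 (congrArg Subtype.val e)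
    simp only [hdd']
    rw [Finset.sum_congr rfl fun χ _ => by
      rw [show y = ((⟨y, Subgroup.le_normalizer hy⟩ : Nz L) : G) from rfl,
        F'.val χ ⟨y, Subgroup.le_normalizer hy⟩ hy fun e => hy1 (congrArg Subtype.val e)],
      ← Finset.mul_sum, ← map_sum, Finset.sum_add_distrib, ← Finset.mul_sum, hs, Finset.sum_const, Finset.card_univ,
      ← Nat.card_eq_fintype_card, nsmul_eq_mul]
    simp only [map_add, map_mul, map_intCast, map_natCast, map_neg, map_one]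
    push_cast; ring
  have e3 : ∑ φ ∈ R, (φ : G → ℂ) x * conj ((φ : G → ℂ) y) = ((∑ φ ∈ R, av φ * bv φ : ℤ) : ℂ) := by
    push_cast
    exact Finset.sum_congr rfl fun φ hφ => by rw [hav φ hφ, hbv φ hφ, map_intCast]
  rw [e1, e2, e3, oneChar_apply, oneChar_apply, map_one, one_mul] at hsum
  have h5 : (1 : ℤ) + (d * ((Nat.card (Rels K) : ℤ) * F.c - F.ε) + d' * ((Nat.card (Rels L) : ℤ) * F'.c - F'.ε) +
      ∑ φ ∈ R, av φ * bv φ) = 0 := by exact_mod_cast hsum
  have h6 := congrArg (fun t : ℤ => (t : ZMod 2)) h5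
  simp only [Int.cast_add, Int.cast_mul, Int.cast_sub, Int.cast_natCast, Int.cast_one, Int.cast_zero, hReven,
    add_zero, (ZMod.natCast_eq_zero_iff_even).2 hKe, (ZMod.natCast_eq_zero_iff_even).2 hLe, zero_mul, zero_sub] at h6
  have hε : ∀ e : ℤ, e = 1 ∨ e = -1 → (-(e : ZMod 2)) = 1 := by
    rintro e (rfl | rfl) <;> simp
  rw [hε _ F.sign, hε _ F'.sign, mul_one, mul_one, ← Int.cast_add] at h6
  rw [← Int.not_even_iff_odd, ← ZMod.intCast_eq_zero_iff_even]
  intro h0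
  rw [h0] at h6
  simp at h6

end Fam

end CfsgLib.CA
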